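import Cfsg.Agent.E8A.Asm.Iface
import Cfsg.Agent.E8A.Inf.Five
import Cfsg.Agent.E8A.Reg5.Uniq
import Cfsg.Agent.H952.F4.MaxA
import Cfsg.Agent.S2654

/-!
# S5772, S5930: the assembly (helper13)

* `NO14` : no `A₁₄` in `E₈(3)`;
* `s5772_of`, `s5930_of` : the statements from the boxes.
-/

set_option autoImplicit false

namespace Cfsg.Agent.E8A

open Cfsg Cfsg.Lie Module
open Cfsg.Agent.H952.F4 (MaxAlt)

universe u

/-- **NO14**: over the field with three elements the degree is at most 13. -/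
def NO14 : Prop := ∀ (F : Type u) [Field F] [Finite F], Nat.card F = 3 → ∀ (H : Subgroup (G8 F)) (n : ℕ)
  (φ : Alt n →* G8 F), MaxAlt H n φ → 14 ≤ n → n ≤ 18 → False

theorem deg_le {F : Type u} [Field F] [Fintype F] (p : ℕ) [Fact p.Prime] [CharP F p] {n : ℕ} {φ : Alt n →* G8 F}
    (hφ : Function.Injective φ) : n ≤ 17 + (if p = 3 then 1 else 0) :=
  S2654.result (F := F) p n φ.range ⊥
    ⟨(QuotientGroup.quotientBot (G := ↥φ.range)).trans (MonoidHom.ofInjective hφ).symm⟩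

/-- **S5772** from the boxes -/
theorem s5772_of (h14 : NO14.{u}) (h2 : ∀ n, 8 ≤ n → n ≤ 17 → CASE.{u} n fun p => p = 2)
    (h3 : ∀ n, 8 ≤ n → n ≤ 18 → CASE.{u} n fun p => p = 3)
    (h5 : ∀ n, 8 ≤ n → n ≤ 17 → CASE.{u} n fun p => 5 ≤ p)
    {F : Type u} [Field F] [Fintype F] (H : Subgroup ↥(chevE8.group F)) (hH : IsCoatom H) (n : ℕ) (hn : 5 ≤ n)
    (hA : Nonempty (↥(generalizedFittingSubgroup ↥H) ≃* ↥(alternatingGroup (Fin n)))) : n = 6 ∨ n = 7 := by
  have := (simple8 (F := F)).1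
  have := finite8 (F := F)
  obtain ⟨φ, hM⟩ := H952.F4.MaxA.exists_maxAlt hH hn hA
  by_contra hcon
  by_cases h5' : n = 5
  · subst h5'
    exact Inf.no_five Reg5.reg5 hM
  have h8 : 8 ≤ n := by omega
  obtain ⟨p, hp, hF⟩ := exists_char F
  have := Fact.mk hp
  have hd := deg_le p hM.inj
  have h18 : n ≤ 18 := by split_ifs at hd <;> omega
  have h13 : Nat.card F = 3 → n ≤ 13 := fun hq => by
    by_contra h
    exact h14 F hq H n φ hM (by omega) h18
  have hφ : NoFx φ := Inf.noFx hM hn h18 h13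
  by_cases e3 : p = 3
  · exact h3 n h8 h18 F p e3 H φ hM hφ
  rw [if_neg e3] at hd
  by_cases e2 : p = 2
  · exact h2 n h8 (by omega) F p e2 H φ hM hφ
  refine h5 n h8 (by omega) F p ?_ H φ hM hφ
  have h2' := hp.two_le
  have h4 : p ≠ 4 := fun h => absurd (h ▸ hp) (by norm_num)
  show 5 ≤ p
  omega

/-- **S5930** from the boxes -/
theorem s5930_of (h63 : CASE.{u} 6 fun p => p = 3) (h65 : CASE.{u} 6 fun p => p = 5) (h72 : CASE.{u} 7 fun p => p = 2)
    {F : Type u} [Field F] [Fintype F] (p : ℕ) [hp : Fact p.Prime] [CharP F p] (H : Subgroup ↥(chevE8.group F))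
    (hH : IsCoatom H) (n : ℕ) (hn : 5 ≤ n)
    (hA : Nonempty (↥(generalizedFittingSubgroup ↥H) ≃* ↥(alternatingGroup (Fin n)))) :
    (n = 6 → p = 2 ∨ 7 ≤ p) ∧ (n = 7 → p ≠ 2) := by
  have := (simple8 (F := F)).1
  have := finite8 (F := F)
  obtain ⟨φ, hM⟩ := H952.F4.MaxA.exists_maxAlt hH hn hA
  constructor
  · rintro rfl
    have hφ : NoFx φ := Inf.noFx hM hn (by norm_num) fun _ => by norm_num
    by_contra hcon
    have h2' := hp.out.two_le
    have h4 : p ≠ 4 := fun h => absurd (h ▸ hp.out) (by norm_num)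
    have h6 : p ≠ 6 := fun h => absurd (h ▸ hp.out) (by norm_num)
    have h35 : p = 3 ∨ p = 5 := by omega
    rcases h35 with e | e
    · exact h63 F p e H φ hM hφ
    · exact h65 F p e H φ hM hφ
  · rintro rfl e
    exact h72 F p e H φ hM (Inf.noFx hM hn (by norm_num) fun _ => by norm_num)

end Cfsg.Agent.E8A
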